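import Cfsg.Agent.H96.U4.Four

/-!
# S3691, box O6m: hyperbolic coordinates of the 4-dimensional unitary space (helper96)

* `Hyp w v` : `w`, `v` dual bases of two totally isotropic planes;  `Hyp.expand`, `exists_hyp`
* `Fixes g w` : `g` stabilises the span of `w`;  `A g`, `D g` : the diagonal blocks;  `A_mul`, `A_D`, `det_eq`, `det_pow`
-/

set_option autoImplicit false

namespace Cfsg.Agent.H96.U4

open Cfsg Cfsg.Geo Module Cfsg.Agent.H951
open scoped Matrix MatrixGroups

variable {K : Type} [Field K] [Fintype K] {q : ℕ}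

/-- dual bases of two totally isotropic planes -/
structure Hyp (q : ℕ) (w v : Fin 2 → (Fin 4 → K)) : Prop where
  ww : ∀ i j, hermForm 4 K q (w i) (w j) = 0
  vv : ∀ i j, hermForm 4 K q (v i) (v j) = 0
  wv : ∀ i j, hermForm 4 K q (w i) (v j) = if i = j then 1 else 0

section hyp

variable (hF : Fintype.card K = q ^ 2) {w v : Fin 2 → (Fin 4 → K)} (h : Hyp q w v)

include hF h

theorem Hyp.vw (i j : Fin 2) : hermForm 4 K q (v i) (w j) = if i = j then 1 else 0 := by
  rw [(H950.frm_herm hF 4).herm (w j) (v i), h.wv, one_mul]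
  by_cases hij : i = j
  · rw [if_pos hij, if_pos hij.symm, map_one]
  · rw [if_neg hij, if_neg (fun e => hij e.symm), map_zero]

theorem Hyp.li : LinearIndependent K (Sum.elim w v) := by
  have hB := H950.frm_herm hF 4
  rw [Fintype.linearIndependent_iff]
  intro g hg i
  rw [Fintype.sum_sum_type] at hg
  simp only [Sum.elim_inl, Sum.elim_inr] at hg
  rcases i with j | j
  · have h1 := congrArg (fun u => hermForm 4 K q u (v j)) hg
    simp only [hB.add_left, hB.sum_left, hB.smul_left, h.wv, h.vv, mul_zero, Finset.sum_const_zero, add_zero,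
      hB.zero_left, mul_ite, mul_one, Finset.sum_ite_eq', Finset.mem_univ, if_true] at h1
    exact h1
  · have h1 := congrArg (fun u => hermForm 4 K q u (w j)) hg
    simp only [hB.add_left, hB.sum_left, hB.smul_left, h.vw hF, h.ww, mul_zero, Finset.sum_const_zero, zero_add,
      hB.zero_left, mul_ite, mul_one, Finset.sum_ite_eq', Finset.mem_univ, if_true] at h1
    exact h1

theorem Hyp.basis : ∃ e : Basis (Fin 2 ⊕ Fin 2) K (Fin 4 → K), (∀ i, e (Sum.inl i) = w i) ∧
    (∀ i, e (Sum.inr i) = v i) ∧ (∀ u j, e.repr u (Sum.inl j) = hermForm 4 K q u (v j)) ∧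
    (∀ u j, e.repr u (Sum.inr j) = hermForm 4 K q u (w j)) := by
  have hB := H950.frm_herm hF 4
  let e := basisOfLinearIndependentOfCardEqFinrank (h.li hF) (by
    rw [Fintype.card_sum, Fintype.card_fin, finrank_fintype_fun_eq_card, Fintype.card_fin])
  have he : ∀ i, e i = Sum.elim w v i := fun i => by
    rw [coe_basisOfLinearIndependentOfCardEqFinrank]
  have hs : ∀ u, u = ∑ j, e.repr u (Sum.inl j) • w j + ∑ j, e.repr u (Sum.inr j) • v j := by
    intro u
    conv_lhs => rw [← e.sum_repr u, Fintype.sum_sum_type]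
    simp only [he, Sum.elim_inl, Sum.elim_inr]
  refine ⟨e, fun i => he _, fun i => he _, fun u j => ?_, fun u j => ?_⟩
  · conv_rhs => rw [hs u]
    simp only [hB.add_left, hB.sum_left, hB.smul_left, h.wv, h.vv, mul_zero, Finset.sum_const_zero, add_zero,
      mul_ite, mul_one, Finset.sum_ite_eq', Finset.mem_univ, if_true]
  · conv_rhs => rw [hs u]
    simp only [hB.add_left, hB.sum_left, hB.smul_left, h.vw hF, h.ww, mul_zero, Finset.sum_const_zero, zero_add,
      mul_ite, mul_one, Finset.sum_ite_eq', Finset.mem_univ, if_true]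

theorem Hyp.expand (u : Fin 4 → K) : u = ∑ j, hermForm 4 K q u (v j) • w j + ∑ j, hermForm 4 K q u (w j) • v j := by
  obtain ⟨e, h1, h2, h3, h4⟩ := h.basis hF
  conv_lhs => rw [← e.sum_repr u, Fintype.sum_sum_type]
  simp only [h1, h2, h3, h4]

end hyp

/-- hyperbolic coordinates from two complementary totally isotropic planes -/
theorem exists_hyp (hF : Fintype.card K = q ^ 2) {W W' : Submodule K (Fin 4 → K)} (hW : TI (hermForm 4 K q) W)
    (hW' : TI (hermForm 4 K q) W') (h2 : finrank K W = 2) (h2' : finrank K W' = 2) (hsup : W ⊔ W' = ⊤) :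
    ∃ w v : Fin 2 → (Fin 4 → K), Hyp q w v ∧ (∀ i, w i ∈ W) ∧ (∀ i, v i ∈ W') ∧ Submodule.span K (Set.range w) = W := by
  have hB := H950.frm_herm hF 4
  let b : Basis (Fin 2) K W := Module.finBasisOfFinrankEq K W h2
  let T : W' →ₗ[K] (Fin 2 → K) :=
    { toFun := fun u i => hermForm 4 K q (u : Fin 4 → K) (b i : Fin 4 → K)
      map_add' := fun u u' => funext fun i => hB.add_left _ _ _
      map_smul' := fun a u => funext fun i => hB.smul_left _ _ _ }
  have hspan : ∀ y ∈ W, ∀ u : Fin 4 → K, (∀ i, hermForm 4 K q u (b i : Fin 4 → K) = 0) → hermForm 4 K q u y = 0 := by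
    intro y hy u hu
    have h3 : y = ∑ i, b.repr ⟨y, hy⟩ i • (b i : Fin 4 → K) := by
      have h4 := congrArg Subtype.val (b.sum_repr ⟨y, hy⟩)
      rw [AddSubmonoidClass.coe_finset_sum] at h4
      simp only [Submodule.coe_smul] at h4
      exact h4.symm
    rw [h3, hB.sum_right]
    refine Finset.sum_eq_zero fun i _ => ?_
    rw [hB.smul_right, hu, mul_zero]
  have hT : Function.Injective T := by
    rw [← LinearMap.ker_eq_bot, Submodule.eq_bot_iff]
    intro u hu
    have hu' : ∀ i, hermForm 4 K q (u : Fin 4 → K) (b i : Fin 4 → K) = 0 := fun i => congrFun hu i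
    by_contra hne
    obtain ⟨y, -, hy⟩ := H950.nd_top hF 4 (u : Fin 4 → K) Submodule.mem_top (fun h0 => hne (Subtype.ext h0))
    apply hy
    have hy' : y ∈ W ⊔ W' := by rw [hsup]; exact Submodule.mem_top
    obtain ⟨a, ha, c, hc, rfl⟩ := Submodule.mem_sup.1 hy'
    rw [hB.add_right, hspan a ha _ hu', hW' _ u.2 _ hc, add_zero]
  have hTs : Function.Surjective T := by
    rw [← LinearMap.range_eq_top]
    apply Submodule.eq_top_of_finrank_eq
    rw [LinearMap.finrank_range_of_inj hT, h2', finrank_fintype_fun_eq_card, Fintype.card_fin]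
  choose u hu using fun j : Fin 2 => hTs (Pi.single j 1)
  refine ⟨fun i => (b i : Fin 4 → K), fun j => (u j : Fin 4 → K), ⟨fun i j => hW _ (b i).2 _ (b j).2,
    fun i j => hW' _ (u i).2 _ (u j).2, fun i j => ?_⟩, fun i => (b i).2, fun i => (u i).2, ?_⟩
  · rw [hB.herm (u j : Fin 4 → K) (b i : Fin 4 → K), one_mul]
    have h3 : hermForm 4 K q (u j : Fin 4 → K) (b i : Fin 4 → K) = (Pi.single j 1 : Fin 2 → K) i := congrFun (hu j) i
    rw [h3, Pi.single_apply]
    split_ifs
    · exact map_one _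
    · exact map_zero _
  · have h3 : Set.range (fun i => (b i : Fin 4 → K)) = W.subtype '' Set.range b := by
      rw [← Set.range_comp]; rfl
    rw [h3, Submodule.span_image, b.span_eq, Submodule.map_top, Submodule.range_subtype]

/-! ### the blocks -/

/-- the block on the span of `w` -/
def A (q : ℕ) (w v : Fin 2 → (Fin 4 → K)) (g : GL (Fin 4) K) : Matrix (Fin 2) (Fin 2) K :=
  Matrix.of fun j i => hermForm 4 K q ((g : Matrix (Fin 4) (Fin 4) K) *ᵥ w i) (v j)

/-- the block on the quotient -/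
def D (q : ℕ) (w v : Fin 2 → (Fin 4 → K)) (g : GL (Fin 4) K) : Matrix (Fin 2) (Fin 2) K :=
  Matrix.of fun j i => hermForm 4 K q ((g : Matrix (Fin 4) (Fin 4) K) *ᵥ v i) (w j)

/-- `g` stabilises the span of `w` -/
def Fixes (q : ℕ) (w : Fin 2 → (Fin 4 → K)) (g : GL (Fin 4) K) : Prop :=
  ∀ i j, hermForm 4 K q ((g : Matrix (Fin 4) (Fin 4) K) *ᵥ w i) (w j) = 0

section blocks

variable (hF : Fintype.card K = q ^ 2) {w v : Fin 2 → (Fin 4 → K)} (h : Hyp q w v) {g g' : GL (Fin 4) K}

include hF h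

theorem Hyp.mulVec_w (hg : Fixes q w g) (i : Fin 2) :
    (g : Matrix (Fin 4) (Fin 4) K) *ᵥ w i = ∑ j, A q w v g j i • w j := by
  conv_lhs => rw [h.expand hF ((g : Matrix (Fin 4) (Fin 4) K) *ᵥ w i)]
  simp only [hg i, zero_smul, Finset.sum_const_zero, add_zero]
  rfl

theorem Hyp.mulVec_v (i : Fin 2) : (g : Matrix (Fin 4) (Fin 4) K) *ᵥ v i =
    ∑ j, hermForm 4 K q ((g : Matrix (Fin 4) (Fin 4) K) *ᵥ v i) (v j) • w j + ∑ j, D q w v g j i • v j :=
  h.expand hF _

theorem Hyp.A_mul (hg' : Fixes q w g') : A q w v (g * g') = A q w v g * A q w v g' := by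
  have hB := H950.frm_herm hF 4
  ext j i
  rw [Matrix.mul_apply]
  change hermForm 4 K q (((g * g' : GL (Fin 4) K) : Matrix (Fin 4) (Fin 4) K) *ᵥ w i) (v j) = _
  rw [Units.val_mul, ← Matrix.mulVec_mulVec, h.mulVec_w hF hg', Matrix.mulVec_sum, hB.sum_left]
  refine Finset.sum_congr rfl fun k _ => ?_
  rw [Matrix.mulVec_smul, hB.smul_left, mul_comm]
  rfl

theorem Hyp.A_one : A q w v (1 : GL (Fin 4) K) = 1 := by
  ext j i
  change hermForm 4 K q (((1 : GL (Fin 4) K) : Matrix (Fin 4) (Fin 4) K) *ᵥ w i) (v j) = _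
  rw [Units.val_one, Matrix.one_mulVec, h.wv, Matrix.one_apply]
  by_cases hij : i = j
  · rw [if_pos hij, if_pos hij.symm]
  · rw [if_neg hij, if_neg (fun e => hij e.symm)]

theorem Hyp.A_D (hg : Fixes q w g) (hu : g ∈ Cfsg.GU 4 K q) :
    (A q w v g)ᵀ * (D q w v g).map (H950.cj hF) = 1 := by
  have hB := H950.frm_herm hF 4
  ext i k
  rw [Matrix.mul_apply, Matrix.one_apply, ← h.wv i k, ← H918.mem_GU.1 hu (w i) (v k), h.mulVec_w hF hg i, hB.sum_left]
  refine Finset.sum_congr rfl fun j _ => ?_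
  rw [hB.smul_left, hB.herm ((g : Matrix (Fin 4) (Fin 4) K) *ᵥ v k) (w j), one_mul]
  rfl

theorem Hyp.det_eq (hg : Fixes q w g) :
    (g : Matrix (Fin 4) (Fin 4) K).det = (A q w v g).det * (D q w v g).det := by
  obtain ⟨e, h1, h2, h3, h4⟩ := h.basis hF
  have h5 : LinearMap.toMatrix e e (Matrix.toLin' (g : Matrix (Fin 4) (Fin 4) K)) =
      Matrix.fromBlocks (A q w v g)
        (Matrix.of fun j i => hermForm 4 K q ((g : Matrix (Fin 4) (Fin 4) K) *ᵥ v i) (v j)) 0 (D q w v g) := by
    ext a b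
    rw [LinearMap.toMatrix_apply, Matrix.toLin'_apply]
    rcases a with a | a <;> rcases b with b | b
    · rw [h1, h3]; rfl
    · rw [h2, h3]; rfl
    · rw [h1, h4, hg b a]; rfl
    · rw [h2, h4]; rfl
  rw [← Matrix.det_fromBlocks_zero₂₁, ← h5, LinearMap.det_toMatrix, LinearMap.det_toLin']

theorem Hyp.det_pow (hg : Fixes q w g) (hu : g ∈ H918.SUg 4 K q) : (A q w v g).det ^ (q - 1) = 1 := by
  have h1 := congrArg Matrix.det (h.A_D hF hg hu.1)
  have h2 := h.det_eq hF hg
  rw [(H918.mem_SUg.1 hu).2] at h2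
  have h3 : ((D q w v g).map (H950.cj hF)).det = (D q w v g).det ^ q := by
    have := RingHom.map_det (H950.cj hF) (D q w v g)
    rw [RingHom.mapMatrix_apply] at this
    rw [← this]
    rfl
  rw [Matrix.det_mul, Matrix.det_transpose, h3, Matrix.det_one] at h1
  set a := (A q w v g).det
  set d := (D q w v g).det
  have ha : a ≠ 0 := fun h0 => by rw [h0, zero_mul] at h2; exact one_ne_zero h2
  have hd : d ≠ 0 := fun h0 => by rw [h0, mul_zero] at h2; exact one_ne_zero h2
  have hdq : d ^ q = d := mul_left_cancel₀ ha (h1.trans h2)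
  have h4 : a ^ q * d ^ q = 1 := by rw [← mul_pow, ← h2, one_pow]
  rw [hdq] at h4
  have h5 : a ^ q = a := mul_right_cancel₀ hd (h4.trans h2)
  have hq : 1 ≤ q := LieClassical.HermBasic.q_pos hF
  apply mul_right_cancel₀ ha
  rw [← pow_succ, Nat.sub_add_cancel hq, h5, one_mul]

end blocks

end Cfsg.Agent.H96.U4
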