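import Cfsg.Agent.H96.U4.SpFour
import Cfsg.Agent.LieClassical.SympCount
import Cfsg.Agent.S0242

/-!
# S3691, box O6m: numbers (helper96)

* `Good f s n` : the conclusion for the order `n` of a subgroup with `r₄`
* `sp_good` : subgroups of `Sp_4(q)` with `r₄`
-/

set_option autoImplicit false
set_option linter.unusedSectionVars false

namespace Cfsg.Agent.H96.U4

open Cfsg Cfsg.Geo Module
open Cfsg.Agent.H659.Rs (Pm v2 BoxSp4 IsL)
open scoped Matrix MatrixGroups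

/-- the conclusion for `r₄` -/
def Good (f s n : ℕ) : Prop :=
  ¬ s ∣ n ∧ (n.factorization 2 ≤ 2 * f + 1 ∨ (4 * f ≤ n.factorization 2 ∧ (n.factorization 2 ≤ 4 * f ∨
    n ∣ (2 ^ f) ^ 6 * ((2 ^ f) ^ 4 - 1) * (2 ^ f - 1))))

theorem fact_two_pow_mul {a b : ℕ} (hb : Odd b) : (2 ^ a * b).factorization 2 = a := by
  have hb0 : b ≠ 0 := by rintro rfl; exact absurd hb (by decide)
  rw [Nat.factorization_mul (by positivity) hb0, Finsupp.add_apply, Nat.Prime.factorization_pow Nat.prime_two,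
    Finsupp.single_eq_same, Nat.factorization_eq_zero_of_not_dvd (by rwa [← even_iff_two_dvd, Nat.not_even_iff_odd]), add_zero]

theorem fact_le {n a b : ℕ} (h : n ∣ 2 ^ a * b) (hb : Odd b) : n.factorization 2 ≤ a := by
  have hb0 : b ≠ 0 := by rintro rfl; exact absurd hb (by decide)
  have h0 : 2 ^ a * b ≠ 0 := mul_ne_zero (by positivity) hb0
  have hn : n ≠ 0 := fun e => h0 (by rw [e] at h; exact zero_dvd_iff.1 h)
  have h1 := (Nat.factorization_le_iff_dvd hn h0).2 h 2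
  rwa [fact_two_pow_mul hb] at h1

theorem odd_sub {f k : ℕ} (hf : 1 ≤ f) (hk : 1 ≤ k) : Odd ((2 ^ f) ^ k - 1) := by
  rw [← pow_mul]
  exact Nat.Even.sub_odd Nat.one_le_two_pow (Even.pow_of_ne_zero (by decide) (by positivity)) (by decide)

theorem odd_sub' {f : ℕ} (hf : 1 ≤ f) : Odd (2 ^ f - 1) := by
  have := odd_sub (k := 1) hf le_rfl
  rwa [pow_one] at this

theorem Pm.not_dvd_two {n s : ℕ} (h : Pm n s) (hn : n ≠ 0) : ¬ s ∣ 2 := by
  intro h2
  have h3 := (Nat.prime_dvd_prime_iff_eq h.prime Nat.prime_two).1 h2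
  subst h3
  have h4 := Pm.two_pow h
  have h5 : ((2 : ℕ) : ZMod 2) = 0 := by decide
  rw [h5, zero_pow hn] at h4
  exact absurd h4 (by decide)

theorem Pm.not_dvd_two_pow {n s k : ℕ} (h : Pm n s) (hn : n ≠ 0) : ¬ s ∣ 2 ^ k := fun h2 =>
  Pm.not_dvd_two h hn (h.prime.dvd_of_dvd_pow h2)

theorem Pm.dvd_sub_iff {n s : ℕ} (h : Pm n s) (k : ℕ) : s ∣ 2 ^ k - 1 ↔ n ∣ k := by
  have h1 : 1 ≤ 2 ^ k := Nat.one_le_two_pow
  rw [← h.ord, orderOf_dvd_iff_pow_eq_one, ← ZMod.natCast_eq_zero_iff, Nat.cast_sub h1, Nat.cast_pow, Nat.cast_one, sub_eq_zero]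

theorem Pm.not_dvd_sub {m f s k : ℕ} (h : Pm (m * f) s) (hf : 1 ≤ f) (_ : 1 ≤ k) (hkm : ¬ m ∣ k) : ¬ s ∣ (2 ^ f) ^ k - 1 := by
  rw [← pow_mul, Pm.dvd_sub_iff h, mul_comm f k]
  intro h1
  exact hkm (Nat.dvd_of_mul_dvd_mul_right (by omega) h1)

theorem Pm.not_dvd_sub' {m f s : ℕ} (h : Pm (m * f) s) (hf : 1 ≤ f) (hkm : ¬ m ∣ 1) : ¬ s ∣ 2 ^ f - 1 := by
  have := Pm.not_dvd_sub (k := 1) h hf le_rfl hkm
  rwa [pow_one] at this

theorem card_spGL_two {F : Type} [Field F] [Fintype F] :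
    Nat.card (spGL 2 F) = Fintype.card F ^ 4 * ((Fintype.card F ^ 2 - 1) * (Fintype.card F ^ 4 - 1)) := by
  have h1 := LieClassical.SympCount.card_symplecticGroup (F := F) 2
  rw [Finset.prod_range_succ, Finset.prod_range_one] at h1
  have hinj : Function.Injective (H876.spToGL 2 F) := by
    intro a b h
    apply Subtype.ext
    exact congrArg (fun g : GL (Fin 2 ⊕ Fin 2) F => (g : Matrix (Fin 2 ⊕ Fin 2) (Fin 2 ⊕ Fin 2) F)) h
  rw [← H931.map_spToGL_top, Subgroup.card_map_of_injective hinj, Subgroup.card_top, h1]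
  rfl

theorem card_psl_dvd {K : Type} [Field K] [Fintype K] {q : ℕ} (hq : 2 ≤ q) (hK : Fintype.card K = q ^ 2) :
    Nat.card (Matrix.ProjectiveSpecialLinearGroup (Fin 2) K) ∣ q ^ 2 * (q ^ 4 - 1) := by
  have h1 := Cfsg.Agent.S0242.result hK 2 (by norm_num)
  rw [Fin.prod_univ_two] at h1
  have h2 : Nat.card (Matrix.SpecialLinearGroup (Fin 2) K) = q ^ 2 * (q ^ 4 - 1) := by
    have hpos : 0 < q ^ 2 - 1 := by
      have : 2 ^ 2 ≤ q ^ 2 := Nat.pow_le_pow_left hq 2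
      omega
    apply Nat.eq_of_mul_eq_mul_left hpos
    rw [h1]
    have e1 : (q ^ 2) ^ 2 - (q ^ 2) ^ ((0 : Fin 2) : ℕ) = q ^ 4 - 1 := by
      rw [← pow_mul]; simp
    have e2 : (q ^ 2) ^ 2 - (q ^ 2) ^ ((1 : Fin 2) : ℕ) = q ^ 2 * (q ^ 2 - 1) := by
      rw [Fin.val_one, pow_one, Nat.mul_sub, mul_one, sq (q ^ 2)]
    rw [e1, e2]
    ring
  rw [← h2]
  exact Subgroup.card_quotient_dvd_card _

theorem index_le_two {G : Type*} [Group G] {Y L : Subgroup G} (h : ∀ x ∈ Y, ∀ y ∈ Y, x ∉ L → y ∉ L → x⁻¹ * y ∈ L) :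
    (L.subgroupOf Y).index ∣ 2 := by
  by_cases hle : Y ≤ L
  · rw [Subgroup.subgroupOf_eq_top.2 hle, Subgroup.index_top]
    norm_num
  · obtain ⟨a, haY, haL⟩ := SetLike.not_le_iff_exists.1 hle
    have h2 : (L.subgroupOf Y).index = 2 := by
      rw [Subgroup.index_eq_two_iff]
      refine ⟨⟨a, haY⟩, fun b => ?_⟩
      simp only [Subgroup.mem_subgroupOf, Subgroup.coe_mul]
      by_cases hb : (b : G) ∈ L
      · right
        exact ⟨hb, fun h3 => haL ((Subgroup.mul_mem_cancel_left L hb).1 h3)⟩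
      · left
        refine ⟨?_, hb⟩
        have := h ((b : G)⁻¹) (Y.inv_mem b.2) a haY (fun h4 => hb (by simpa using L.inv_mem h4)) haL
        rwa [inv_inv] at this
    rw [h2]

/-- subgroups of `Sp_4(q)` -/
theorem sp_good {F : Type} [Field F] [Fintype F] {f r s : ℕ} (h4 : BoxSp4) (hf : 4 ≤ f) (hF : Fintype.card F = 2 ^ f)
    (hr : Pm (4 * f) r) (hs : Pm (6 * f) s) {Y : Subgroup (GL (Fin 2 ⊕ Fin 2) F)} (hY : Y ≤ spGL 2 F)
    (hrY : r ∣ Nat.card Y) : Good f s (Nat.card Y) := by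
  have hf1 : 1 ≤ f := by omega
  have hsp := hs.prime.prime
  have s1 := Pm.not_dvd_two_pow (k := f) hs (by omega)
  have s1' := Pm.not_dvd_two hs (by omega)
  have s2 := Pm.not_dvd_sub (k := 2) hs hf1 (by norm_num) (by norm_num)
  have s3 := Pm.not_dvd_sub (k := 4) hs hf1 (by norm_num) (by norm_num)
  have s4 := Pm.not_dvd_sub' hs hf1 (by norm_num)
  rcases h4 hf hF hr Y hY hrY with h | ⟨L, hL, -, h⟩ | h
  · rw [h, card_spGL_two, hF]
    have e : ((2 ^ f) ^ 4 * (((2 ^ f) ^ 2 - 1) * ((2 ^ f) ^ 4 - 1))).factorization 2 = 4 * f := by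
      have e1 : (2 ^ f) ^ 4 * (((2 ^ f) ^ 2 - 1) * ((2 ^ f) ^ 4 - 1)) =
        2 ^ (4 * f) * (((2 ^ f) ^ 2 - 1) * ((2 ^ f) ^ 4 - 1)) := by rw [← pow_mul 2 f 4, mul_comm f 4]
      rw [e1]
      exact fact_two_pow_mul ((odd_sub (k := 2) hf1 (by norm_num)).mul (odd_sub (k := 4) hf1 (by norm_num)))
    refine ⟨?_, Or.inr ⟨e.ge, Or.inl e.le⟩⟩
    intro h1
    rcases hsp.dvd_mul.1 h1 with h1 | h1
    · exact s1 (hs.prime.dvd_of_dvd_pow h1)
    · rcases hsp.dvd_mul.1 h1 with h1 | h1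
      · exact s2 h1
      · exact s3 h1
  · obtain ⟨K, i1, i2, hK, ⟨e⟩⟩ := hL.iso
    have h1 : Nat.card L ∣ (2 ^ f) ^ 2 * ((2 ^ f) ^ 4 - 1) := by
      rw [Nat.card_congr e.toEquiv]
      exact card_psl_dvd (by
        have : 2 ^ 1 ≤ 2 ^ f := Nat.pow_le_pow_right (by norm_num) hf1
        omega) (by rw [hK, hF])
    have h2 : Nat.card Y ∣ 2 * ((2 ^ f) ^ 2 * ((2 ^ f) ^ 4 - 1)) := by
      rw [← Subgroup.index_mul_card (L.subgroupOf Y)]
      refine Nat.mul_dvd_mul (index_le_two h) (dvd_trans ?_ h1)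
      exact Subgroup.card_comap_dvd_of_injective L Y.subtype Subtype.coe_injective
    refine ⟨?_, Or.inl (fact_le (b := (2 ^ f) ^ 4 - 1) (h2.trans ?_) (odd_sub hf1 (by norm_num)))⟩
    · intro h3
      have h3 := h3.trans h2
      rcases hsp.dvd_mul.1 h3 with h3 | h3
      · exact s1' h3
      · rcases hsp.dvd_mul.1 h3 with h3 | h3
        · exact s1 (hs.prime.dvd_of_dvd_pow h3)
        · exact s3 h3
    · rw [← mul_assoc]
      refine Nat.mul_dvd_mul_right (dvd_of_eq ?_) _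
      rw [← pow_mul, mul_comm f 2, pow_succ]
      ring
  · have h1 : Nat.card Y ∣ 2 ^ (2 * f) * (((2 ^ f) ^ 4 - 1) * (2 ^ f - 1)) := by
      refine h.trans ?_
      rw [← pow_mul, mul_comm f 2, mul_assoc]
      refine Nat.mul_dvd_mul_left _ (Nat.mul_dvd_mul_right ?_ _)
      have : 1 ≤ (2 ^ f) ^ 2 := Nat.one_le_pow _ _ (by positivity)
      refine ⟨(2 ^ f) ^ 2 - 1, ?_⟩
      zify [this, Nat.one_le_pow 4 (2 ^ f) (by positivity)]
      ring
    refine ⟨?_, Or.inl ((fact_le h1 ((odd_sub hf1 (by norm_num)).mul (odd_sub' hf1))).trans (by omega))⟩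
    intro h3
    have h3 := h3.trans h1
    rcases hsp.dvd_mul.1 h3 with h3 | h3
    · exact Pm.not_dvd_two_pow hs (by omega) h3
    · rcases hsp.dvd_mul.1 h3 with h3 | h3
      · exact s3 h3
      · exact s4 h3

/-- the numbers of the stabiliser of a totally isotropic plane -/
theorem plane_good {f s n a b : ℕ} (hf : 1 ≤ f) (hs : Pm (6 * f) s) (hn : n = a * b)
    (hb : b ∣ (2 ^ f) ^ 2 * ((2 ^ f) ^ 4 - 1) * (2 ^ f - 1)) (ha : a = 1 ∨ a = (2 ^ f) ^ 4) : Good f s n := by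
  have hsp := hs.prime.prime
  have hb' : b ∣ 2 ^ (2 * f) * (((2 ^ f) ^ 4 - 1) * (2 ^ f - 1)) := by
    rwa [← pow_mul, mul_comm f 2, mul_assoc] at hb
  have hodd : Odd (((2 ^ f) ^ 4 - 1) * (2 ^ f - 1)) := (odd_sub hf (by norm_num)).mul (odd_sub' hf)
  have h2 : b.factorization 2 ≤ 2 * f := fact_le hb' hodd
  have hb0 : b ≠ 0 := by
    rintro rfl
    have h3 := zero_dvd_iff.1 hb'
    rcases mul_eq_zero.1 h3 with h4 | h4
    · exact absurd h4 (by positivity)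
    · rw [h4] at hodd; exact absurd hodd (by decide)
  have hsb : ¬ s ∣ b := by
    intro h3
    have h3 := h3.trans hb'
    rcases hsp.dvd_mul.1 h3 with h3 | h3
    · exact Pm.not_dvd_two_pow hs (by omega) h3
    · rcases hsp.dvd_mul.1 h3 with h3 | h3
      · exact Pm.not_dvd_sub hs hf (by norm_num) (by norm_num) h3
      · exact Pm.not_dvd_sub' hs hf (by norm_num) h3
  rcases ha with rfl | rfl
  · rw [one_mul] at hn
    subst hn
    exact ⟨hsb, Or.inl (by omega)⟩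
  · subst hn
    refine ⟨?_, Or.inr ⟨?_, Or.inr ?_⟩⟩
    · intro h3
      rcases hsp.dvd_mul.1 h3 with h3 | h3
      · rw [← pow_mul] at h3
        exact Pm.not_dvd_two_pow hs (by omega) h3
      · exact hsb h3
    · rw [Nat.factorization_mul (by positivity) hb0, ← pow_mul, Finsupp.add_apply,
        Nat.Prime.factorization_pow Nat.prime_two, Finsupp.single_eq_same]
      omega
    · have e : (2 ^ f) ^ 6 * ((2 ^ f) ^ 4 - 1) * (2 ^ f - 1) =
        (2 ^ f) ^ 4 * ((2 ^ f) ^ 2 * ((2 ^ f) ^ 4 - 1) * (2 ^ f - 1)) := by ring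
      rw [e]
      exact Nat.mul_dvd_mul_left _ hb

end Cfsg.Agent.H96.U4
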